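import Cfsg.Agent.H165.RV.Final

/-!
# TEAM RV: odd automorphisms fix the classes of Hall subgroups (helper165)

* `fixC_of_cent` : `φ` of odd order centralising a Sylow `2`-subgroup `P ≤ H` fixes the class of `H`;
* `orow_of_autOdd`, `crow_of_autOdd`.
-/

set_option autoImplicit false

namespace Cfsg.Agent.H165.RV

open Subgroup Cfsg Cfsg.Agent.H988.CPi Cfsg.Agent.H571.DExt Cfsg.Agent.H561.RV
open scoped Pointwise

universe u

variable {π : Set ℕ} {S : Type u} [Group S] [Finite S]

theorem finite_mulAut (S : Type u) [Group S] [Finite S] : Finite (MulAut S) :=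
  Finite.of_injective (fun f : MulAut S => (f : S → S)) DFunLike.coe_injective

/-- **An automorphism of odd order centralising `P` fixes the class of `H`.** -/
theorem fixC_of_cent (hcl : Claim.{u} π (Nat.card (MulAut.conj : S →* MulAut S).range))
    (hinj : Function.Injective (MulAut.conj : S →* MulAut S)) {H : Subgroup S} (hH : IsPiHall π H)
    {P : Sylow 2 S} (hP : (P : Subgroup S) ≤ H) {φ : MulAut S} (hodd : Odd (orderOf φ)) (hfix : ∀ x ∈ P, φ x = x) :
    FixC φ H := by
  have := finite_mulAut S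
  set c : S →* MulAut S := MulAut.conj with hc
  have hconj : ∀ (ψ : MulAut S) (x : S), ψ * c x * ψ⁻¹ = c (ψ x) := by
    intro ψ x
    ext y
    simp [hc, MulAut.mul_apply]
  have hrel : ∀ X : Subgroup S, (X.map c).relIndex c.range = X.index := by
    intro X
    rw [← relIndex_top_right X, ← relIndex_map_map_of_injective X ⊤ hinj, ← MonoidHom.range_eq_map]
  have conf : Conf π c.range (H.map c) ((P : Subgroup S).map c) φ := by
    refine ⟨?_, ?_, ?_, ?_, map_mono hP, P.isPGroup'.map _, ?_, hodd, ?_⟩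
    · rw [mem_normalizer_iff]
      intro y
      constructor
      · rintro ⟨x, rfl⟩
        exact ⟨φ x, (hconj φ x).symm⟩
      · rintro ⟨x, hx⟩
        refine ⟨φ⁻¹ x, ?_⟩
        rw [← hconj φ⁻¹ x, hx]
        group
    · exact map_le_range _ _
    · rw [card_map_of_injective hinj]; exact hH.1
    · rw [hrel]; exact hH.2
    · rw [hrel]; exact P.not_dvd_index
    · rintro _ ⟨x, hx, rfl⟩
      rw [hconj, hfix x hx]
  obtain ⟨x, hx, he⟩ := hcl (MulAut S) c.range (H.map c) ((P : Subgroup S).map c) φ rfl conf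
  -- `φ • H.map c = (φ • H).map c`
  have hmap : ∀ ψ : MulAut S, MulAut.conj ψ • H.map c = (H.map (ψ : S ≃* S).toMonoidHom).map c := by
    intro ψ
    rw [← cj_eq, map_map, map_map]
    congr 1
    ext y : 1
    exact hconj ψ y
  have hxr : x ∈ c.range := by
    have : H.map c ⊔ MulAut.conj φ • H.map c ≤ c.range := by
      refine sup_le (map_le_range _ _) ?_
      rw [hmap]
      exact map_le_range _ _
    exact this hx
  obtain ⟨s, rfl⟩ := hxr
  refine ⟨s, ?_⟩
  apply map_injective hinj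
  rw [← hmap, he, hmap]

omit [Finite S] in
theorem conj_injective [IsSimpleGroup S] (hS : ¬ IsMulCommutative S) :
    Function.Injective (MulAut.conj : S →* MulAut S) := by
  rw [← MonoidHom.ker_eq_bot_iff]
  rcases (inferInstance : IsSimpleGroup S).eq_bot_or_eq_top_of_normal (MulAut.conj : S →* MulAut S).ker inferInstance
    with h | h
  · exact h
  · exfalso
    apply hS
    refine ⟨⟨fun a b => ?_⟩⟩
    have h1 : (MulAut.conj a : MulAut S) = 1 := by
      have : a ∈ (MulAut.conj : S →* MulAut S).ker := by rw [h]; trivial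
      exact this
    have h2 : MulAut.conj a b = b := by rw [h1]; rfl
    rw [MulAut.conj_apply] at h2
    calc a * b = a * b * a⁻¹ * a := by group
      _ = b * a := by rw [h2]

/-- **correction by an inner automorphism** -/
theorem fixC_of_autOdd (hcl : Claim.{u} π (Nat.card (MulAut.conj : S →* MulAut S).range))
    (hinj : Function.Injective (MulAut.conj : S →* MulAut S)) {H : Subgroup S} (hH : IsPiHall π H)
    {P : Sylow 2 S} (hP : (P : Subgroup S) ≤ H) {φ : MulAut S} (hodd : Odd (orderOf φ))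
    (hA : ∃ s : S, ∀ x ∈ P, s * φ x * s⁻¹ = x) : FixC φ H := by
  have := finite_mulAut S
  obtain ⟨s, hs⟩ := hA
  set ψ : MulAut S := MulAut.conj s * φ with hψ
  have hψP : ∀ x ∈ P, ψ x = x := fun x hx => hs x hx
  set I : Subgroup (MulAut S) := (MulAut.conj : S →* MulAut S).range with hI
  have hIn : I.Normal := by
    refine ⟨?_⟩
    rintro _ ⟨t, rfl⟩ α
    refine ⟨α t, ?_⟩
    ext x
    simp [MulAut.mul_apply]
  have hIF : I ≤ fixer H := by
    rintro _ ⟨t, rfl⟩
    exact conj_mem_fixer t H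
  -- `ψ ∈ fixer H`, from its 2-part and its odd part
  obtain ⟨k, m, hm, hk⟩ := Nat.exists_eq_pow_mul_and_not_dvd (orderOf_pos ψ).ne' 2 (by norm_num)
  have hco : Nat.Coprime (2 ^ k) m := Nat.Coprime.pow_left _ (Nat.prime_two.coprime_iff_not_dvd.2 hm)
  have h1 : ψ ^ (2 ^ k) ∈ fixer H := by
    have h3 : (ψ ^ 2 ^ k) ^ m = 1 := by rw [← pow_mul, ← hk, pow_orderOf_eq_one]
    have h4 : Odd (orderOf (ψ ^ 2 ^ k)) :=
      Odd.of_dvd_nat (Nat.odd_iff.2 (by omega)) (orderOf_dvd_of_pow_eq_one h3)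
    refine fixC_of_cent hcl hinj hH hP h4 fun x hx => ?_
    have h5 : ∀ j : ℕ, (ψ ^ j) x = x := by
      intro j
      induction j with
      | zero => rfl
      | succ j ih => rw [pow_succ, MulAut.mul_apply, hψP x hx, ih]
    exact h5 _
  -- modulo `I`, `ψ = φ` has odd order
  have h2 : ψ ^ (orderOf φ) ∈ fixer H := by
    apply hIF
    have h3 : (QuotientGroup.mk' I) (ψ ^ orderOf φ) = 1 := by
      have h4 : (QuotientGroup.mk' I) ψ = (QuotientGroup.mk' I) φ := by
        rw [hψ, map_mul]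
        have : (QuotientGroup.mk' I) (MulAut.conj s) = 1 := by
          rw [QuotientGroup.mk'_apply, QuotientGroup.eq_one_iff]
          exact ⟨s, rfl⟩
        rw [this, one_mul]
      rw [map_pow, h4, ← map_pow, pow_orderOf_eq_one, map_one]
    rw [QuotientGroup.mk'_apply, QuotientGroup.eq_one_iff] at h3
    exact h3
  have h3 : ψ ∈ fixer H := by
    refine mem_of_pow_mem (a := 2 ^ k) (b := orderOf φ) ?_ h1 h2
    exact Nat.Coprime.pow_left _ (Nat.coprime_two_left.mpr hodd)
  have h4 : φ = MulAut.conj s⁻¹ * ψ := by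
    rw [hψ, ← mul_assoc, ← map_mul, inv_mul_cancel, map_one, one_mul]
  have h5 : φ ∈ fixer H := by
    rw [h4]
    exact mul_mem (conj_mem_fixer s⁻¹ H) h3
  exact h5

section

variable (h2 : 2 ∈ π)
  (hN : ∀ (S : Type u) [Group S] [Finite S] [IsSimpleGroup S], ¬ IsMulCommutative S → NRow π S)
  (hB : ∀ (S : Type u) [Group S] [Finite S] [IsSimpleGroup S], ¬ IsMulCommutative S → BRow π S)

include h2 hN hB

/-- **`ORow` from `AutOdd`** -/
theorem orow_of_autOdd [IsSimpleGroup S] (hS : ¬ IsMulCommutative S) (hA : AutOdd S) : ORow π S := by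
  intro H hH φ hφ
  obtain ⟨P, hP⟩ := exists_sylow_le h2 hH
  exact fixC_of_autOdd (pr_of_conf h2 hN hB _) (conj_injective hS) hH hP hφ (hA P φ hφ)

/-- **`CRow` from `AutOdd`** -/
theorem crow_of_autOdd [IsSimpleGroup S] (hS : ¬ IsMulCommutative S) (hA : AutOdd S) : CRow π S := by
  intro H hH φ hφ
  refine orow_of_autOdd h2 hN hB hS hA H hH φ ?_
  rw [← Nat.not_even_iff_odd]
  intro h
  exact hφ 2 Nat.prime_two h.two_dvd h2

/-- the version with a restricted set of automorphisms (order prime to `l`) -/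
theorem fixC_of_autOdd' [IsSimpleGroup S] (hS : ¬ IsMulCommutative S) {H : Subgroup S} (hH : IsPiHall π H)
    {φ : MulAut S} (hodd : Odd (orderOf φ)) (hA : ∀ P : Sylow 2 S, ∃ s : S, ∀ x ∈ P, s * φ x * s⁻¹ = x) :
    FixC φ H := by
  obtain ⟨P, hP⟩ := exists_sylow_le h2 hH
  exact fixC_of_autOdd (pr_of_conf h2 hN hB _) (conj_injective hS) hH hP hodd (hA P)

end

omit [Finite S] in
/-- `ORow → CRow` (`2 ∈ π`) -/
theorem crow_of_orow (h2 : 2 ∈ π) (h : ORow π S) : CRow π S := by
  intro H hH φ hφ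
  refine h H hH φ ?_
  rw [← Nat.not_even_iff_odd]
  intro h
  exact hφ 2 Nat.prime_two h.two_dvd h2

omit [Finite S] in
/-- `C_π → CRow` -/
theorem crow_of_cpi (h : IsCPiGroup π S) : CRow π S := by
  intro H hH φ _
  refine h.2 H _ hH ⟨?_, ?_⟩
  · exact PiN.of_dvd hH.1 (card_map_dvd _ _)
  · exact PiN'.of_dvd hH.2 (index_map_dvd _ φ.surjective)

end Cfsg.Agent.H165.RV
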