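import Cfsg.Agent.H165.RV.Step
import Cfsg.Agent.PermutationGroups.OnanScott

/-!
# TEAM RV: Hall subgroups of a nonabelian minimal normal subgroup (helper165)
-/

set_option autoImplicit false

namespace Cfsg.Agent.H165.RV

open Subgroup Cfsg Cfsg.Agent.H988.CPi Cfsg.Agent.H571.DExt
open scoped Pointwise

universe u

variable {G : Type u} [Group G] [Finite G] {π : Set ℕ}

/-- `|N : H ∩ N|` divides `|K : H|` if `N` is normal in `K`. -/
theorem relIndex_dvd {H N K : Subgroup G} (hNK : N ≤ K) (hHK : H ≤ K) (hn : K ≤ normalizer (N : Set G)) :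
    H.relIndex N ∣ H.relIndex K := by
  have n1 : (N.subgroupOf K).Normal := (normal_subgroupOf_iff_le_normalizer hNK).mpr hn
  have h1 := relIndex_mul_sup_index (H.subgroupOf K) (N.subgroupOf K)
  rw [relIndex_subgroupOf hNK] at h1
  exact ⟨_, h1.symm⟩

/-- the version without `H ≤ K` -/
theorem relIndex_dvd' {H N K : Subgroup G} (hNK : N ≤ K) (hn : K ≤ normalizer (N : Set G)) :
    H.relIndex N ∣ H.relIndex K := by
  have h1 := relIndex_dvd (H := H ⊓ K) hNK inf_le_right hn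
  rw [inf_relIndex_right] at h1
  have h2 : (H ⊓ K).relIndex N = H.relIndex N := by
    rw [← inf_relIndex_right, inf_assoc, inf_of_le_right hNK, inf_relIndex_right]
  rwa [h2] at h1

section Coord

variable {m : ℕ} {A : Subgroup G} {T : Fin m → Subgroup G} (e : A ≃* (∀ i, T i))

/-- The coordinates of an element of a Hall subgroup `R` of `A` are in `R`. -/
theorem coord_mem (hTA : ∀ i, T i ≤ A) (hAT : ∀ i, A ≤ normalizer (T i : Set G))
    (hs : ∀ i (t : T i), ((e.symm (Pi.mulSingle i t) : A) : G) = t)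
    {R : Subgroup G} (hRA : R ≤ A) (h1 : PiN π (Nat.card R)) (h2 : PiN' π (R.relIndex A)) {x : G} (hx : x ∈ R)
    (j : Fin m) : ((e ⟨x, hRA hx⟩ j : T j) : G) ∈ R := by
  set f : A →* T j := (Pi.evalMonoidHom (fun i => T i) j).comp e.toMonoidHom with hf
  set P : Subgroup (T j) := (R.subgroupOf A).map f with hP
  have hRP : R.subgroupOf (T j) ≤ P := by
    intro t ht
    refine ⟨⟨(t : G), hTA j t.2⟩, ht, ?_⟩
    have h3 : e.symm (Pi.mulSingle j t) = ⟨(t : G), hTA j t.2⟩ := Subtype.ext (hs j t)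
    show e ⟨(t : G), hTA j t.2⟩ j = t
    rw [← h3, MulEquiv.apply_symm_apply, Pi.mulSingle_eq_same]
  have hPc : PiN π (Nat.card P) := by
    refine PiN.of_dvd h1 ((card_map_dvd _ _).trans ?_)
    rw [← card_map_of_injective A.subtype_injective, subgroupOf_map_subtype]
    exact card_dvd_of_le inf_le_left
  have hRi : PiN' π ((R.subgroupOf (T j)).index) := PiN'.of_dvd h2 (relIndex_dvd' (hTA j) (hAT j))
  have h4 : (R.subgroupOf (T j)).relIndex P = 1 := by
    apply eq_one_of_both (π := π)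
    · exact hPc.of_dvd (relIndex_dvd_card _ _)
    · exact hRi.of_dvd ⟨_, (relIndex_mul_index hRP).symm⟩
  exact (relIndex_eq_one.mp h4) ⟨⟨x, hRA hx⟩, hx, rfl⟩

/-- An element of `A` is in a subgroup `L` if its coordinates are. -/
theorem mem_of_coord (hs : ∀ i (t : T i), ((e.symm (Pi.mulSingle i t) : A) : G) = t) {L : Subgroup G} (z : ∀ i, T i)
    (hz : ∀ i, (z i : G) ∈ L) : ((e.symm z : A) : G) ∈ L := by
  have h1 : z ∈ (L.subgroupOf A).comap e.symm.toMonoidHom := by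
    refine Subgroup.pi_mem_of_mulSingle_mem z fun i => ?_
    show ((e.symm (Pi.mulSingle i (z i)) : A) : G) ∈ L
    rw [hs]
    exact hz i
  exact h1

/-- **The coordinate step.** -/
theorem pr_of_coord (hTA : ∀ i, T i ≤ A) (hAT : ∀ i, A ≤ normalizer (T i : Set G))
    (hs : ∀ i (t : T i), ((e.symm (Pi.mulSingle i t) : A) : G) = t) [A.Normal]
    {R : Subgroup G} (hRA : R ≤ A) (h1 : PiN π (Nat.card R)) (h2 : PiN' π (R.relIndex A)) {y : G}
    (hy : ∀ j, ∃ z ∈ (R ⊓ T j) ⊔ (MulAut.conj y • R ⊓ T j),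
      MulAut.conj y • R ⊓ T j = MulAut.conj z • (R ⊓ T j)) : Pr R y := by
  choose z hz hze using hy
  have hzT : ∀ j, z j ∈ T j := fun j => (sup_le inf_le_right inf_le_right : (R ⊓ T j) ⊔ (MulAut.conj y • R ⊓ T j) ≤ T j) (hz j)
  set Z : ∀ i, T i := fun i => ⟨z i, hzT i⟩ with hZ
  have hmem : ((e.symm Z : A) : G) ∈ R ⊔ MulAut.conj y • R := by
    refine mem_of_coord e hs Z fun i => ?_
    exact (sup_le (inf_le_left.trans le_sup_left) (inf_le_left.trans le_sup_right) :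
      (R ⊓ T i) ⊔ (MulAut.conj y • R ⊓ T i) ≤ R ⊔ MulAut.conj y • R) (hz i)
  refine ⟨_, hmem, ?_⟩
  symm
  have hle : MulAut.conj ((e.symm Z : A) : G) • R ≤ MulAut.conj y • R := by
    intro w hw
    rw [← cj_eq] at hw
    obtain ⟨x, hx, rfl⟩ := hw
    have hxe : (⟨x, hRA hx⟩ : A) = e.symm (e ⟨x, hRA hx⟩) := (e.symm_apply_apply _).symm
    have h3 : (MulAut.conj ((e.symm Z : A) : G)).toMonoidHom x
        = ((e.symm (Z * e ⟨x, hRA hx⟩ * Z⁻¹) : A) : G) := by
      rw [map_mul, map_mul, map_inv, e.symm_apply_apply]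
      rfl
    rw [h3]
    refine mem_of_coord e hs _ fun i => ?_
    have h4 : ((e ⟨x, hRA hx⟩ i : T i) : G) ∈ R ⊓ T i := ⟨coord_mem e hTA hAT hs hRA h1 h2 hx i, (e ⟨x, hRA hx⟩ i).2⟩
    have h5 : z i * (e ⟨x, hRA hx⟩ i : G) * (z i)⁻¹ ∈ MulAut.conj (z i) • (R ⊓ T i) := by
      rw [← cj_eq]
      exact ⟨_, h4, rfl⟩
    rw [← hze i] at h5
    exact h5.1
  exact eq_of_le_of_card_ge hle (by rw [card_smul, card_smul])

end Coord

/-! ### The stabiliser of the tuple of classes -/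

/-- `h` maps the class of `H ∩ T i` to the class of `H ∩ T j`. -/
def GoodEl {m : ℕ} (T : Fin m → Subgroup G) (H : Subgroup G) (h : G) : Prop :=
  ∀ i j, T j = MulAut.conj h • T i → ∃ s ∈ T j, MulAut.conj h • (H ⊓ T i) = MulAut.conj s • (H ⊓ T j)

/-- the stabiliser of the tuple of classes -/
def stabC {m : ℕ} (T : Fin m → Subgroup G) (H : Subgroup G) (hperm : ∀ (g : G) i, ∃ j, T j = MulAut.conj g • T i) :
    Subgroup G where
  carrier := {h | GoodEl T H h}
  one_mem' := by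
    intro i j hij
    rw [map_one, one_smul] at hij
    exact ⟨1, one_mem _, by rw [hij]⟩
  mul_mem' {a b} ha hb := by
    intro i j hij
    obtain ⟨k, hk⟩ := hperm b i
    rw [smul_mul, ← hk] at hij
    obtain ⟨s, hs, hse⟩ := hb i k hk
    obtain ⟨s', hs', hse'⟩ := ha k j hij
    refine ⟨a * s * a⁻¹ * s', mul_mem ?_ hs', ?_⟩
    · rw [hij, ← cj_eq]
      exact ⟨s, hs, rfl⟩
    · rw [smul_mul, hse, smul_mul (a * s * a⁻¹), ← hse', ← smul_mul, ← smul_mul]
      congr 2
      group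
  inv_mem' {a} ha := by
    intro i j hij
    have h1 : T i = MulAut.conj a • T j := by rw [hij, conj_smul_inv_smul]
    obtain ⟨s, hs, hse⟩ := ha j i h1
    refine ⟨a⁻¹ * s⁻¹ * a, ?_, ?_⟩
    · rw [hij, ← cj_eq]
      exact ⟨s⁻¹, inv_mem hs, by simp⟩
    · have h2 : H ⊓ T i = MulAut.conj s⁻¹ • MulAut.conj a • (H ⊓ T j) := by
        rw [hse, conj_inv_smul_smul]
      rw [h2, ← smul_mul, ← smul_mul]

theorem mem_stabC {m : ℕ} {T : Fin m → Subgroup G} {H : Subgroup G}
    {hperm : ∀ (g : G) i, ∃ j, T j = MulAut.conj g • T i} {h : G} : h ∈ stabC T H hperm ↔ GoodEl T H h := Iff.rfl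

theorem le_stabC {m : ℕ} {T : Fin m → Subgroup G} {H : Subgroup G}
    {hperm : ∀ (g : G) i, ∃ j, T j = MulAut.conj g • T i} : H ≤ stabC T H hperm := by
  intro h hh i j hij
  refine ⟨1, one_mem _, ?_⟩
  rw [smul_inf', ← hij, smul_eq_of_mem hh, map_one, one_smul]

end Cfsg.Agent.H165.RV
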