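import Cfsg.Agent.H165.RV.PronMain
import Cfsg.Agent.H553.ExtRed

/-!
# TEAM RV: Hall subgroups of `H A` with a prescribed intersection with `A` (helper165)
-/

set_option autoImplicit false

namespace Cfsg.Agent.H165.RV

open Subgroup Cfsg Cfsg.Agent.H988.CPi Cfsg.Agent.H571.DExt Cfsg.Agent.H553.ExtRed
open scoped Pointwise

universe u

variable {π : Set ℕ}

theorem isPiHall_pi {ι : Type*} [Fintype ι] (T : ι → Type*) [∀ i, Group (T i)] [∀ i, Finite (T i)]
    (L : ∀ i, Subgroup (T i)) (hL : ∀ i, IsPiHall π (L i)) : IsPiHall π (Subgroup.pi Set.univ L) := by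
  classical
  have h1 : Nat.card (Subgroup.pi Set.univ L) = ∏ i, Nat.card (L i) := by
    have e : (Subgroup.pi Set.univ L) ≃ (∀ i, L i) :=
      { toFun := fun x i => ⟨x.1 i, x.2 i (Set.mem_univ i)⟩
        invFun := fun y => ⟨fun i => y i, fun i _ => (y i).2⟩
        left_inv := fun x => rfl
        right_inv := fun y => rfl }
    rw [Nat.card_congr e, Nat.card_pi]
  have h2 : (Subgroup.pi Set.univ L).index = ∏ i, (L i).index := by
    have h2 := Subgroup.card_mul_index (Subgroup.pi Set.univ L)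
    have h4 : Nat.card (∀ i, T i) = (∏ i, Nat.card (L i)) * ∏ i, (L i).index := by
      rw [Nat.card_pi, ← Finset.prod_mul_distrib]
      exact Finset.prod_congr rfl fun i _ => (Subgroup.card_mul_index (L i)).symm
    rw [h1, h4] at h2
    exact Nat.eq_of_mul_eq_mul_left (Finset.prod_pos fun i _ => Nat.card_pos) h2
  refine ⟨?_, ?_⟩
  · intro p hp hd
    rw [h1] at hd
    exact piN_prod Finset.univ _ (fun i _ => (hL i).1) p hp hd
  · intro p hp hpi hd
    rw [h2] at hd
    exact piN'_prod Finset.univ _ (fun i _ => (hL i).2) p hp hpi hd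

variable {G : Type u} [Group G] [Finite G]

section Coord

variable {m : ℕ} {A : Subgroup G} {L : Fin m → Subgroup G} (e : A ≃* (∀ i, L i))

omit [Finite G] in
theorem coord_single (hLA : ∀ i, L i ≤ A) (hs : ∀ i (t : L i), ((e.symm (Pi.mulSingle i t) : A) : G) = t) (i : Fin m)
    {t : G} (ht : t ∈ L i) : e ⟨t, hLA i ht⟩ = Pi.mulSingle i ⟨t, ht⟩ := by
  apply e.symm.injective
  rw [e.symm_apply_apply]
  exact Subtype.ext (hs i ⟨t, ht⟩).symm

theorem hall_iSup (hLA : ∀ i, L i ≤ A) (hs : ∀ i (t : L i), ((e.symm (Pi.mulSingle i t) : A) : G) = t)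
    {R : Fin m → Subgroup G} (hRL : ∀ i, R i ≤ L i) (h1 : ∀ i, PiN π (Nat.card (R i)))
    (h2 : ∀ i, PiN' π ((R i).relIndex (L i))) :
    PiN π (Nat.card (⨆ i, R i : Subgroup G)) ∧ PiN' π ((⨆ i, R i).relIndex A) := by
  classical
  have hall : IsPiHall π (Subgroup.pi Set.univ fun i => (R i).subgroupOf (L i)) := by
    refine isPiHall_pi _ _ fun i => ⟨?_, h2 i⟩
    have : Nat.card ((R i).subgroupOf (L i)) = Nat.card (R i) := by
      rw [← card_map_of_injective (L i).subtype_injective, subgroupOf_map_subtype, inf_of_le_left (hRL i)]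
    rw [this]; exact h1 i
  set Q : Subgroup A := (Subgroup.pi Set.univ fun i => (R i).subgroupOf (L i)).comap e.toMonoidHom with hQ
  have hQe : (⨆ i, R i) = Q.map A.subtype := by
    apply le_antisymm
    · refine iSup_le fun i r hr => ?_
      refine ⟨⟨r, hLA i (hRL i hr)⟩, ?_, rfl⟩
      show e ⟨r, hLA i (hRL i hr)⟩ ∈ Subgroup.pi Set.univ fun i => (R i).subgroupOf (L i)
      rw [coord_single e hLA hs i (hRL i hr)]
      intro j _
      by_cases hj : j = i
      · subst hj
        rw [Pi.mulSingle_eq_same]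
        exact hr
      · rw [Pi.mulSingle_eq_of_ne hj]
        exact ((R j).subgroupOf (L j)).one_mem
    · rintro _ ⟨x, hx, rfl⟩
      have h3 : x = e.symm (e x) := (e.symm_apply_apply x).symm
      rw [h3]
      refine mem_of_coord e hs _ fun i => ?_
      exact (le_iSup R i) (hx i (Set.mem_univ i))
  have hQi : Q.index = (Subgroup.pi Set.univ fun i => (R i).subgroupOf (L i)).index :=
    index_comap_of_surjective _ e.surjective
  have hQc : Nat.card Q = Nat.card (Subgroup.pi Set.univ fun i => (R i).subgroupOf (L i)) := by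
    have h3 := Q.card_mul_index
    have h4 := (Subgroup.pi Set.univ fun i => (R i).subgroupOf (L i)).card_mul_index
    rw [hQi, Nat.card_congr e.toEquiv, ← h4] at h3
    exact Nat.eq_of_mul_eq_mul_right (Nat.pos_of_ne_zero index_ne_zero_of_finite) h3
  rw [hQe]
  refine ⟨?_, ?_⟩
  · rw [card_map_of_injective A.subtype_injective, hQc]
    exact hall.1
  · have : (Q.map A.subtype).relIndex A = Q.index := by
      show ((Q.map A.subtype).subgroupOf A).index = _
      congr 1
      exact comap_map_eq_self_of_injective A.subtype_injective Q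
    rw [this, hQi]
    exact hall.2

omit [Finite G] in
/-- the action of `e.symm z` on subgroups of `L j` -/
theorem conj_coord (hLA : ∀ i, L i ≤ A) (hs : ∀ i (t : L i), ((e.symm (Pi.mulSingle i t) : A) : G) = t)
    (z : ∀ i, L i) (j : Fin m) {K : Subgroup G} (hK : K ≤ L j) :
    MulAut.conj ((e.symm z : A) : G) • K = MulAut.conj (z j : G) • K := by
  classical
  have key : ∀ k ∈ L j, ((e.symm z : A) : G) * k * ((e.symm z : A) : G)⁻¹ = (z j : G) * k * (z j : G)⁻¹ := by
    intro k hk
    have h1 : z * Pi.mulSingle j ⟨k, hk⟩ * z⁻¹ = Pi.mulSingle j (z j * ⟨k, hk⟩ * (z j)⁻¹) := by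
      funext i
      by_cases hi : i = j
      · subst hi
        simp
      · simp [Pi.mulSingle_eq_of_ne hi]
    have h2 : e.symm (z * Pi.mulSingle j ⟨k, hk⟩ * z⁻¹) = e.symm z * ⟨k, hLA j hk⟩ * (e.symm z)⁻¹ := by
      rw [map_mul, map_mul, map_inv, ← coord_single e hLA hs j hk, e.symm_apply_apply]
    rw [h1] at h2
    have h3 := congrArg (Subtype.val) h2
    rw [hs] at h3
    exact h3.symm
  rw [← cj_eq, ← cj_eq]
  ext x
  constructor
  · rintro ⟨k, hk, rfl⟩
    exact ⟨k, hk, (key k (hK hk)).symm⟩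
  · rintro ⟨k, hk, rfl⟩
    exact ⟨k, hk, key k (hK hk)⟩

end Coord

omit [Finite G] in
theorem smul_iSup' {ι : Sort*} (g : G) (R : ι → Subgroup G) :
    MulAut.conj g • (⨆ i, R i) = ⨆ i, MulAut.conj g • R i := by
  rw [← cj_eq, Subgroup.map_iSup]
  exact iSup_congr fun i => cj_eq g (R i)

/-- **A Hall subgroup of `D` (`D / A` a `π`-group) over a given Hall subgroup of `A` with `D`-invariant class.** -/
theorem exists_hall_over {A D R : Subgroup G} [A.Normal] (hAD : A ≤ D) (hRA : R ≤ A) (h1 : PiN π (Nat.card R))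
    (h2 : PiN' π (R.relIndex A)) (hF : ∀ v ∈ D, ∃ a ∈ A, MulAut.conj v • R = MulAut.conj a • R)
    (hD : PiN π (A.relIndex D)) (hD' : PiN' π D.index) :
    ∃ H' : Subgroup G, IsPiHall π H' ∧ H' ≤ D ∧ R ≤ H' ∧ H' ⊔ A = D := by
  set M := normalizer (R : Set G) ⊓ D with hM
  obtain ⟨X, hX⟩ := (cpi_normalizer A D R hAD hRA h1 h2 hD).1
  have hRM : R ≤ M := le_inf le_normalizer (hRA.trans hAD)
  have hMD : M ≤ D := inf_le_right
  have hMA : M ⊔ A = D := by
    apply le_antisymm (sup_le hMD hAD)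
    intro v hv
    obtain ⟨a, ha, hva⟩ := hF v hv
    have h3 : a⁻¹ * v ∈ normalizer (R : Set G) := by
      apply normalizer_of_smul_eq
      rw [smul_mul, hva, conj_inv_smul_smul]
    have h4 : a⁻¹ * v ∈ M := mem_inf.mpr ⟨h3, D.mul_mem (D.inv_mem (hAD ha)) hv⟩
    have h5 : v = a * (a⁻¹ * v) := by group
    rw [h5]
    exact mul_mem (mem_sup_right ha) (mem_sup_left h4)
  set H' := X.map M.subtype with hH'
  have hH'M : H' ≤ M := map_subtype_le _
  have hc : PiN π (Nat.card H') := by
    rw [hH', card_map_of_injective M.subtype_injective]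
    exact hX.1
  have hXi : H'.relIndex M = X.index := by
    show (H'.subgroupOf M).index = _
    congr 1
    exact comap_map_eq_self_of_injective M.subtype_injective X
  have hMDi : PiN' π (M.relIndex D) := by
    have h3 : M.relIndex D = M.relIndex A := by
      rw [← relIndex_sup' M A, hMA]
    rw [h3]
    refine PiN'.of_dvd h2 ?_
    rw [← inf_relIndex_right M A]
    exact ⟨_, ((mul_comm _ _).trans (relIndex_mul_relIndex R (M ⊓ A) A (le_inf hRM hRA) inf_le_right)).symm⟩
  have hH'D : PiN' π (H'.relIndex D) := by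
    rw [← relIndex_mul_relIndex H' M D hH'M hMD, hXi]
    exact PiN'.mul hX.2 hMDi
  refine ⟨H', ⟨hc, ?_⟩, hH'M.trans hMD, ?_, ?_⟩
  · rw [← relIndex_mul_index (hH'M.trans hMD)]
    exact PiN'.mul hH'D hD'
  · have n1 : (R.subgroupOf M).Normal := (normal_subgroupOf_iff_le_normalizer hRM).mpr inf_le_left
    have h3 : R.subgroupOf M ≤ X := by
      refine le_of_normal hX ?_
      have : Nat.card (R.subgroupOf M) = Nat.card R := by
        rw [← card_map_of_injective M.subtype_injective, subgroupOf_map_subtype, inf_of_le_left hRM]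
      rw [this]; exact h1
    intro r hr
    exact ⟨⟨r, hRM hr⟩, h3 hr, rfl⟩
  · apply le_antisymm (sup_le (hH'M.trans hMD) hAD)
    rw [← relIndex_eq_one]
    apply eq_one_of_both (π := π)
    · refine hD.of_dvd ?_
      exact ⟨_, ((mul_comm _ _).trans (relIndex_mul_relIndex A (H' ⊔ A) D le_sup_right (sup_le (hH'M.trans hMD) hAD))).symm⟩
    · refine hH'D.of_dvd ?_
      exact ⟨_, ((mul_comm _ _).trans (relIndex_mul_relIndex H' (H' ⊔ A) D le_sup_left (sup_le (hH'M.trans hMD) hAD))).symm⟩

/-- a Hall subgroup of `L` inside a `π`-group -/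
theorem inf_eq_of_hall {H L R : Subgroup G} (hRL : R ≤ L) (hRH : R ≤ H) (hH : PiN π (Nat.card H))
    (hR : PiN' π (R.relIndex L)) : H ⊓ L = R := by
  apply le_antisymm ?_ (le_inf hRH hRL)
  rw [← relIndex_eq_one]
  apply eq_one_of_both (π := π)
  · exact (hH.of_dvd (card_dvd_of_le inf_le_left)).of_dvd (relIndex_dvd_card _ _)
  · exact hR.of_dvd (relIndex_dvd_of_le' (le_inf hRH hRL) inf_le_right)

end Cfsg.Agent.H165.RV
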