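import Cfsg.Agent.H165.RV.CpiB

/-!
# TEAM RV: S2223 and S3851 from the rows, S4350 and S4311 (helper165)
-/

set_option autoImplicit false

namespace Cfsg.Agent.H165.RV

open Subgroup Cfsg Cfsg.Agent.H988.CPi Cfsg.Agent.H571.DExt
open scoped Pointwise

universe u

/-- S4350: Hall `π`-subgroups are conjugate if `2 ∉ π`. -/
def OddConj : Prop :=
  ∀ (π : Set ℕ), 2 ∉ π → ∀ (G : Type u) [Group G] [Finite G] (H K : Subgroup G), IsPiHall π H → IsPiHall π K →
    ∃ g : G, K = MulAut.conj g • H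

/-- Hall subgroups of odd order are pronormal -/
theorem pronormal_odd (hO : OddConj.{u}) {π : Set ℕ} (h2 : 2 ∉ π) {G : Type u} [Group G] [Finite G] {H : Subgroup G}
    (hH : IsPiHall π H) : IsPronormal H := by
  rw [isPronormal_iff]
  intro g
  set J := H ⊔ MulAut.conj g • H with hJ
  have hHJ : H ≤ J := le_sup_left
  have hgJ : MulAut.conj g • H ≤ J := le_sup_right
  have key : ∀ X : Subgroup G, X ≤ J → IsPiHall π X → IsPiHall π (X.subgroupOf J) := by
    intro X hX h
    refine ⟨?_, PiN'.of_dvd h.2 (relIndex_dvd_index_of_le hX)⟩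
    have : Nat.card (X.subgroupOf J) = Nat.card X := by
      rw [← card_map_of_injective J.subtype_injective, subgroupOf_map_subtype, inf_of_le_left hX]
    rw [this]; exact h.1
  obtain ⟨x, hx⟩ := hO π h2 J _ _ (key H hHJ hH) (key _ hgJ (isPiHall_smul hH g))
  refine ⟨x, x.2, ?_⟩
  have h3 := congrArg (Subgroup.map J.subtype) hx
  rw [map_smul', subgroupOf_map_subtype, subgroupOf_map_subtype, inf_of_le_left hHJ, inf_of_le_left hgJ] at h3
  exact h3

/-- the rows for `π ∋ 2` -/
def AllRows : Prop :=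
  ∀ (π : Set ℕ), 2 ∈ π → ∀ (S : Type u) [Group S] [Finite S] [IsSimpleGroup S], ¬ IsMulCommutative S →
    NRow π S ∧ BRow π S

def AllCRows : Prop :=
  ∀ (π : Set ℕ), 2 ∈ π → ∀ (S : Type u) [Group S] [Finite S] [IsSimpleGroup S], ¬ IsMulCommutative S → CRow π S

/-- **S2223 from S4350 and the rows** -/
theorem s2223_of (hO : OddConj.{u}) (hR : AllRows.{u}) {G : Type u} [Group G] [Finite G] [IsSimpleGroup G]
    (hG : ¬ IsMulCommutative G) (H : Subgroup G) (hH : (Nat.card H).Coprime H.index) : IsPronormal H := by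
  set π : Set ℕ := {p | p ∣ Nat.card H} with hπ
  have hHall : IsPiHall π H := by
    refine ⟨fun p _ h => h, fun p hp h h' => ?_⟩
    exact Nat.not_coprime_of_dvd_of_dvd hp.one_lt h h' hH
  by_cases h2 : 2 ∈ π
  · exact pronormal_simple h2 (fun S _ _ _ h => (hR π h2 S h).1) (fun S _ _ _ h => (hR π h2 S h).2) G hG hHall
  · exact pronormal_odd hO h2 hHall

/-- **S3851 from S4350, S4311 and the rows** -/
theorem s3851_of (hO : OddConj.{u}) (hR : AllRows.{u}) (hC : AllCRows.{u}) (hl : ∀ π : Set ℕ, LiftHall.{u} π)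
    {G : Type u} [Group G] [Finite G] (π : Set ℕ) (hG : IsCPiGroup π G) (H : Subgroup G) (hH : IsPiHall π H) :
    IsPronormal H := by
  by_cases h2 : 2 ∈ π
  · exact pronormal_of_cpi h2 (fun S _ _ _ h => (hR π h2 S h).1) (fun S _ _ _ h => (hR π h2 S h).2)
      (fun S _ _ _ h => hC π h2 S h) (hl π) _ G rfl hG H hH
  · exact pronormal_odd hO h2 hH

end Cfsg.Agent.H165.RV
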